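import Cfsg.Agent.H94.BR.SpDefs
import Cfsg.Agent.H601.BR.Fld

/-!
# HUB BR, `Sp_{2m}(2^f)`, case C: the twist from Curtis–Richen (helper887, T5c)

* `twi_of_crg` : if `w` has the `2^j`-th power of the character of `v0` and the same stabiliser, then `W` is the
  `2^j`-th Frobenius twist of `V`;
* `Twi.finrank_eq`, `Twi.trace_eq`.
-/

set_option autoImplicit false
set_option linter.unusedVariables false

namespace Cfsg.Agent.H887.BR

open Cfsg.Agent.H883.BR Cfsg.Agent.H94.BR Cfsg.Agent.H601.BR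

section

variable {K : Type} [Field K] [CharP K 2] [IsAlgClosed K]

/-- the `2^j`-th Frobenius automorphism -/
noncomputable def fro (K : Type) [Field K] [CharP K 2] [IsAlgClosed K] (j : ℕ) : K ≃+* K := iterateFrobeniusEquiv K 2 j

theorem fro_apply (j : ℕ) (c : K) : fro K j c = c ^ 2 ^ j := by
  rw [fro, iterateFrobeniusEquiv_apply, iterateFrobenius_def]

variable {V W : Type} [AddCommGroup V] [Module K V] [AddCommGroup W] [Module K W]

theorem twi_of_crg [FiniteDimensional K V] [FiniteDimensional K W] {G : Type} [Group G] [Finite G]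
    {ρ : G →* Module.End K V} {σ : G →* Module.End K W} {M : Subgroup G} {U : Subgroup M} (hc : CRG.{0, 0, 0} 2 U)
    (hV : Irr ρ M) (hW : Irr σ M) (hz : ∀ z : M, z ∈ Subgroup.center M → ρ z = 1 ∧ σ z = 1) {v0 : V} {w : W}
    (hv0 : v0 ≠ 0) (hw : w ≠ 0) (hv : ∀ u ∈ U, ρ (u : G) v0 = v0) (hwu : ∀ u ∈ U, σ (u : G) w = w) (j : ℕ)
    (hb : ∀ (b : M) (c : K), (∀ u ∈ U, b * u * b⁻¹ ∈ U) → ρ (b : G) v0 = c • v0 → σ (b : G) w = c ^ 2 ^ j • w)
    (hst : ∀ g : M, (∃ c : K, ρ (g : G) v0 = c • v0) ↔ ∃ c : K, σ (g : G) w = c • w) :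
    ∃ φ : V → W, Twi ρ σ M j φ := by
  have hv' : (⟨v0⟩ : Tw (fro K j) V) ≠ 0 := fun h => hv0 (congrArg Tw.val h)
  have hfs : ∀ c : K, ((fro K j).symm c) ^ 2 ^ j = c := fun c => by
    rw [← fro_apply, RingEquiv.apply_symm_apply]
  obtain ⟨e, he⟩ := hc.iso K (Tw (fro K j) V) W ((twR (fro K j) ρ).comp M.subtype) (σ.comp M.subtype)
    (irr_comp (irr_twR (fro K j) hV)) (irr_comp hW) (fun z hzz => by
      refine LinearMap.ext fun v => Tw.ext ?_
      show ρ z v.val = v.val
      rw [(hz z hzz).1]; rfl) (fun z hzz => (hz z hzz).2) ⟨v0⟩ w hv' hw (fun u hu => Tw.ext (hv u hu)) hwu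
    (fun b c hbu => by
      constructor
      · intro h
        have h1 : ρ b v0 = (fro K j).symm c • v0 := congrArg Tw.val h
        have h2 := hb b _ hbu h1
        rw [hfs] at h2
        exact h2
      · intro h
        have h0 : σ (b : G) w = c • w := h
        obtain ⟨c', hc'⟩ := (hst b).2 ⟨c, h⟩
        have h1 := hb b c' hbu hc'
        have h2 : c = c' ^ 2 ^ j := by
          apply smul_left_injective K hw
          show c • w = c' ^ 2 ^ j • w
          rw [← h0, h1]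
        refine Tw.ext ?_
        show ρ b v0 = (fro K j).symm c • v0
        have h3 : (fro K j).symm c = c' := by
          rw [RingEquiv.symm_apply_eq, fro_apply, h2]
        rw [h3, hc'])
    (fun g => by
      show (∃ c : K, twR (fro K j) ρ (g : G) ⟨v0⟩ = c • (⟨v0⟩ : Tw (fro K j) V)) ↔ _
      refine Iff.trans ⟨?_, ?_⟩ (hst g)
      · rintro ⟨c, h⟩
        exact ⟨(fro K j).symm c, congrArg Tw.val h⟩
      · rintro ⟨c, h⟩
        refine ⟨fro K j c, Tw.ext ?_⟩
        show ρ g v0 = (fro K j).symm (fro K j c) • v0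
        rw [RingEquiv.symm_apply_apply, h])
  refine ⟨fun x => e ⟨x⟩, ?_, ?_, ?_, ?_⟩
  · exact e.bijective.comp (eqv (fro K j) (W := V)).symm.bijective
  · intro x y
    rw [← map_add]
    rfl
  · intro c x
    have h1 : (⟨c • x⟩ : Tw (fro K j) V) = fro K j c • (⟨x⟩ : Tw (fro K j) V) := Tw.ext (by
      rw [val_smul, RingEquiv.symm_apply_apply])
    show e ⟨c • x⟩ = c ^ 2 ^ j • e ⟨x⟩
    rw [h1, map_smul, fro_apply]
  · intro g hg x
    exact he ⟨g, hg⟩ ⟨x⟩

variable {G : Type} [Group G] {ρ : G →* Module.End K V} {σ : G →* Module.End K W} {M : Subgroup G} {j : ℕ} {φ : V → W}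

/-- the linear equivalence of a twist -/
theorem exists_equiv (h : Twi ρ σ M j φ) : ∃ e : Tw (fro K j) V ≃ₗ[K] W, ∀ x : V, e ⟨x⟩ = φ x := by
  let f : Tw (fro K j) V →ₗ[K] W :=
    { toFun := fun x => φ x.val
      map_add' := fun x y => h.add _ _
      map_smul' := fun c x => by
        show φ ((fro K j).symm c • x.val) = c • φ x.val
        rw [h.smul, ← fro_apply, RingEquiv.apply_symm_apply] }
  exact ⟨LinearEquiv.ofBijective f (h.bij.comp (eqv (fro K j) (W := V)).bijective), fun _ => rfl⟩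

theorem finrank_eq_of_twi [FiniteDimensional K V] (h : Twi ρ σ M j φ) : Module.finrank K V = Module.finrank K W := by
  obtain ⟨e, -⟩ := exists_equiv h
  rw [← e.finrank_eq, finrank_tw]

/-- **the traces** -/
theorem trace_eq_of_twi [FiniteDimensional K V] (ht : Twi ρ σ M j φ) {H : Subgroup G} (hMH : M ≤ H)
    (hn : ∀ h ∈ H, ∀ m ∈ M, h * m * h⁻¹ ∈ M) (hV : Irr ρ M) (hdρ : ∀ h ∈ H, LinearMap.det (ρ h) = 1)
    (hdσ : ∀ h ∈ H, LinearMap.det (σ h) = 1) {s : ℕ} (hs : Module.finrank K V = 2 ^ s) :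
    ∀ h ∈ H, LinearMap.trace K W (σ h) = (LinearMap.trace K V (ρ h)) ^ 2 ^ j := by
  intro h hh
  obtain ⟨e, he⟩ := exists_equiv ht
  have he' : ∀ m ∈ M, ∀ x : Tw (fro K j) V, e (twR (fro K j) ρ m x) = σ m (e x) := by
    intro m hm x
    have h1 := ht.eqv m hm x.val
    rw [← he, ← he] at h1
    exact h1
  obtain ⟨c, hc⟩ := schur (irr_twR (fro K j) hV)
    (X := twR (fro K j) ρ h⁻¹ ∘ₗ (e.symm : W →ₗ[K] Tw (fro K j) V) ∘ₗ σ h ∘ₗ (e : Tw (fro K j) V →ₗ[K] W))
    (fun m hm => by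
      refine LinearMap.ext fun v => ?_
      show twR (fro K j) ρ h⁻¹ (e.symm (σ h (e (twR (fro K j) ρ m v)))) =
        twR (fro K j) ρ m (twR (fro K j) ρ h⁻¹ (e.symm (σ h (e v))))
      have h1 : ∀ x, σ h (σ m x) = σ (h * m * h⁻¹) (σ h x) := fun x => by
        rw [← Module.End.mul_apply, ← Module.End.mul_apply, ← map_mul, ← map_mul]
        congr 2; group
      have h2 : ∀ x, twR (fro K j) ρ m (twR (fro K j) ρ h⁻¹ x) = twR (fro K j) ρ h⁻¹ (twR (fro K j) ρ (h * m * h⁻¹) x) :=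
        fun x => by
          rw [← Module.End.mul_apply, ← Module.End.mul_apply, ← map_mul, ← map_mul]
          congr 2; group
      rw [he' m hm, h1, h2]
      congr 1
      rw [LinearEquiv.symm_apply_eq, he' _ (hn h hh m hm), LinearEquiv.apply_symm_apply])
  have key : ∀ x, σ h (e x) = c • e (twR (fro K j) ρ h x) := by
    intro x
    have h1 : twR (fro K j) ρ h⁻¹ (e.symm (σ h (e x))) = c • x :=
      congrArg (fun T : Module.End K (Tw (fro K j) V) => T x) hc
    have h2 := congrArg (twR (fro K j) ρ h) h1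
    rw [← Module.End.mul_apply, ← map_mul, mul_inv_cancel, map_one, map_smul] at h2
    have h3 : e.symm (σ h (e x)) = c • twR (fro K j) ρ h x := h2
    rw [LinearEquiv.symm_apply_eq, map_smul] at h3
    exact h3
  have hconj : (e : Tw (fro K j) V →ₗ[K] W) ∘ₗ (c • twE (fro K j) (ρ h)) ∘ₗ (e.symm : W →ₗ[K] Tw (fro K j) V) = σ h := by
    refine LinearMap.ext fun x => ?_
    show e (c • twR (fro K j) ρ h (e.symm x)) = σ h x
    rw [map_smul, ← key, LinearEquiv.apply_symm_apply]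
  have hdt : c ^ 2 ^ s = 1 := by
    have h1 := LinearMap.det_conj (c • twE (fro K j) (ρ h)) e
    rw [hconj, LinearMap.det_smul, det_twE, hdρ h hh, map_one, mul_one, finrank_tw, hs, hdσ h hh] at h1
    exact h1.symm
  have hc1 : c = 1 := by
    have h1 : (c - 1) ^ 2 ^ s = 0 := by
      rw [sub_pow_char_pow, hdt, one_pow, sub_self]
    exact sub_eq_zero.1 (pow_eq_zero_iff (by positivity) |>.1 h1)
  have h1 := LinearMap.trace_conj' (c • twE (fro K j) (ρ h)) e
  rw [LinearEquiv.conj_apply, LinearMap.comp_assoc, hconj, hc1, one_smul, trace_twE, fro_apply] at h1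
  exact h1

end

end Cfsg.Agent.H887.BR
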